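import Cfsg.Agent.Lib.Helper43.PA.Two2
import Cfsg.Prelude.Def_LieTypeDatum

set_option autoImplicit false

/-!
Every automorphism of `PSL_n(F)`, `F` finite, `n ≥ 2`, is a product of a diagonal-inner, a field and
a graph automorphism.
-/

namespace Cfsg.Agent.Lib.Helper43.PA

open Matrix

variable {n : ℕ} {F : Type*} [Field F]

theorem aut_three [Fintype F] {p f : ℕ} [hp : Fact p.Prime] (hF : Fintype.card F = p ^ f)
    (hf : 1 ≤ f) (hn : 3 ≤ n) (β : MulAut (ProjectiveSpecialLinearGroup (Fin n) F)) :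
    ∃ (g : GL (Fin n) F) (σ : F ≃+* F), β = cG g * fA σ ∨ β = cG g * fA σ * gam := by
  have hβ : PresTv β := fun s hs => star hF hf (by omega) β hs
  rcases types hn hβ with ⟨h1, h2⟩ | ⟨h1, h2⟩
  · obtain ⟨g, σ, h⟩ := main_of_types hn β h1 h2
    exact ⟨g, σ, Or.inl h⟩
  · obtain ⟨g, σ, h⟩ := main_of_types hn (gam * β) (fun i => cc_gam_of_aa (h1 i))
      (fun j => aa_gam_of_cc (h2 j))
    refine ⟨invTGL g, σ, Or.inr ?_⟩
    have h3 : β = gam * (cG g * fA σ) := by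
      rw [← h, ← mul_assoc, gam_mul_gam, one_mul]
    rw [h3, ← mul_assoc, gam_mul_cG, mul_assoc, gam_mul_fA, mul_assoc]

theorem aut_factor [Fintype F] {p f : ℕ} [hp : Fact p.Prime] (hF : Fintype.card F = p ^ f)
    (hf : 1 ≤ f) (hn : 2 ≤ n) (β : MulAut (ProjectiveSpecialLinearGroup (Fin n) F)) :
    ∃ (g : GL (Fin n) F) (σ : F ≃+* F), β = cG g * fA σ ∨ β = cG g * fA σ * gam := by
  rcases Nat.lt_or_ge n 3 with h | h
  · obtain rfl : n = 2 := by omega
    obtain ⟨g, σ, h⟩ := aut_two hF hf β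
    exact ⟨g, σ, Or.inl h⟩
  · exact aut_three hF hf h β

lemma isInnerDiagonal_cG (g : GL (Fin n) F) : Cfsg.IsInnerDiagonalAutPSL (cG g) := by
  refine ⟨g, fun s s' h => ?_⟩
  rw [cG_mk]
  congr 1
  apply SL_ext
  rw [h, conjSL_coe]

lemma isStdField_fA (σ : F ≃+* F) :
    Cfsg.IsStdFieldAutPSL σ (fA σ : MulAut (ProjectiveSpecialLinearGroup (Fin n) F)) := by
  intro s s' h
  rw [fA_mk]
  congr 1
  apply SL_ext
  rw [h, fieldSL_coe]

lemma isInverseTranspose_gam :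
    Cfsg.IsInverseTransposeAutPSL (gam : MulAut (ProjectiveSpecialLinearGroup (Fin n) F)) := by
  intro s s' h
  rw [gam_mk]
  congr 1
  apply SL_ext
  rw [h, invT_apply, Matrix.SpecialLinearGroup.coe_transpose]

lemma isInduced_cG_fA (g : GL (Fin n) F) (σ : F ≃+* F) :
    Cfsg.IsInducedBySemilinearPSL g σ (cG g * fA σ) := by
  intro s s' h
  rw [MulAut.mul_apply, fA_mk, cG_mk]
  congr 1
  apply SL_ext
  rw [h, conjSL_coe, fieldSL_coe]

end Cfsg.Agent.Lib.Helper43.PA
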