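import Cfsg.Agent.Lib.Helper43.PA.Count
import Cfsg.Agent.Lib.Helper43.PA.Main
import Cfsg.Prelude.Def_KGroupFacts

set_option autoImplicit false

/-!
The structure of `Aut(PSL_n(F))` and `Out(PSL_n(F))`.
-/

namespace Cfsg.Agent.Lib.Helper43.PA

open Matrix

variable {n : ℕ} {F : Type*} [Field F]

lemma zmod2_cases (e : Multiplicative (ZMod 2)) : e = 1 ∨ e = Multiplicative.ofAdd 1 := by
  revert e; decide

/-- the graph automorphism as a homomorphism from `Z/2`. -/
noncomputable def gA : Multiplicative (ZMod 2) →* MulAut (ProjectiveSpecialLinearGroup (Fin n) F) where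
  toFun e := if e = 1 then 1 else gam
  map_one' := by simp
  map_mul' a b := by
    have h1 : (Multiplicative.ofAdd 1 : Multiplicative (ZMod 2)) ≠ 1 := by decide
    have h2 : (Multiplicative.ofAdd 1 : Multiplicative (ZMod 2)) * Multiplicative.ofAdd 1 = 1 := by
      decide
    rcases zmod2_cases a with rfl | rfl <;> rcases zmod2_cases b with rfl | rfl
    · simp
    · simp [h1]
    · simp [h1]
    · simp [h1, h2, gam_mul_gam]

lemma gA_one' : (gA (Multiplicative.ofAdd 1) : MulAut (ProjectiveSpecialLinearGroup (Fin n) F)) = gam := by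
  have h1 : (Multiplicative.ofAdd 1 : Multiplicative (ZMod 2)) ≠ 1 := by decide
  show (if (Multiplicative.ofAdd 1 : Multiplicative (ZMod 2)) = 1 then
    (1 : MulAut (ProjectiveSpecialLinearGroup (Fin n) F)) else gam) = gam
  rw [if_neg h1]

/-- field and graph automorphisms together. -/
noncomputable def psiFG : (F ≃+* F) × Multiplicative (ZMod 2) →*
    MulAut (ProjectiveSpecialLinearGroup (Fin n) F) :=
  MonoidHom.noncommCoprod fA gA (by
    intro σ e
    rcases zmod2_cases e with rfl | rfl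
    · rw [map_one]; exact Commute.one_right _
    · rw [gA_one']; exact (gam_mul_fA σ).symm)

lemma psiFG_apply (σ : F ≃+* F) (e : Multiplicative (ZMod 2)) :
    (psiFG (σ, e) : MulAut (ProjectiveSpecialLinearGroup (Fin n) F)) = fA σ * gA e := rfl

lemma fA_normalizes (σ : F ≃+* F) {d : MulAut (ProjectiveSpecialLinearGroup (Fin n) F)}
    (hd : d ∈ (cG : GL (Fin n) F →* _).range) : fA σ * d * (fA σ)⁻¹ ∈ (cG : GL (Fin n) F →* _).range := by
  obtain ⟨g, rfl⟩ := hd
  exact ⟨mapGL σ g, by rw [fA_mul_cG, mul_inv_cancel_right]⟩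

lemma gam_normalizes {d : MulAut (ProjectiveSpecialLinearGroup (Fin n) F)}
    (hd : d ∈ (cG : GL (Fin n) F →* _).range) : gam * d * gam⁻¹ ∈ (cG : GL (Fin n) F →* _).range := by
  obtain ⟨g, rfl⟩ := hd
  exact ⟨invTGL g, by rw [gam_mul_cG, mul_inv_cancel_right]⟩

theorem theta_three [Fintype F] {p f : ℕ} [hp : Fact p.Prime] (hF : Fintype.card F = p ^ f)
    (hf : 1 ≤ f) (hn : 3 ≤ n) :
    ∃ θ : MulAut (ProjectiveSpecialLinearGroup (Fin n) F) →* (F ≃+* F) × Multiplicative (ZMod 2),
      Function.Surjective θ ∧ θ.ker = (cG : GL (Fin n) F →* _).range := by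
  apply exists_hom_of_complement _ psiFG
  · intro β
    obtain ⟨g, σ, h | h⟩ := aut_three hF hf hn β
    · exact ⟨cG g, ⟨g, rfl⟩, (σ, 1), by rw [psiFG_apply, map_one, mul_one, h]⟩
    · exact ⟨cG g, ⟨g, rfl⟩, (σ, Multiplicative.ofAdd 1), by rw [psiFG_apply, gA_one', h, mul_assoc]⟩
  · rintro ⟨σ, e⟩ d hd
    rw [psiFG_apply]
    rcases zmod2_cases e with rfl | rfl
    · rw [map_one, mul_one]; exact fA_normalizes σ hd
    · rw [gA_one']
      have : fA σ * gam * d * (fA σ * gam)⁻¹ = fA σ * (gam * d * gam⁻¹) * (fA σ)⁻¹ := by group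
      rw [this]
      exact fA_normalizes σ (gam_normalizes hd)
  · rintro ⟨σ, e⟩ h
    rw [psiFG_apply] at h
    rcases zmod2_cases e with rfl | rfl
    · rw [map_one, mul_one] at h
      rw [fA_mem_range_cG (by omega) h]; rfl
    · rw [gA_one'] at h
      exact absurd h (fA_gam_not_mem_range_cG hn σ)

theorem theta_two [Fintype F] {p f : ℕ} [hp : Fact p.Prime] (hF : Fintype.card F = p ^ f)
    (hf : 1 ≤ f) :
    ∃ θ : MulAut (ProjectiveSpecialLinearGroup (Fin 2) F) →* (F ≃+* F),
      Function.Surjective θ ∧ θ.ker = (cG : GL (Fin 2) F →* _).range := by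
  apply exists_hom_of_complement _ fA
  · intro β
    obtain ⟨g, σ, h⟩ := aut_two hF hf β
    exact ⟨cG g, ⟨g, rfl⟩, σ, h⟩
  · intro σ d hd
    exact fA_normalizes σ hd
  · intro σ h
    exact fA_mem_range_cG (by omega) h

lemma card_range_cG (hn : 1 ≤ n) :
    Nat.card (cG : GL (Fin n) F →* _).range = Nat.card (Matrix.ProjGenLinGroup (Fin n) F) := by
  rw [← Nat.card_congr (QuotientGroup.quotientKerEquivRange (cG : GL (Fin n) F →* _)).toEquiv, ker_cG hn]
  rfl

/-- `|Aut| = |PGL| |E|`. -/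
theorem card_aut_of_theta {E : Type*} [Group E] (hn : 1 ≤ n)
    (θ : MulAut (ProjectiveSpecialLinearGroup (Fin n) F) →* E) (hs : Function.Surjective θ)
    (hk : θ.ker = (cG : GL (Fin n) F →* _).range) :
    Nat.card (MulAut (ProjectiveSpecialLinearGroup (Fin n) F)) =
      Nat.card E * Nat.card (Matrix.ProjGenLinGroup (Fin n) F) := by
  rw [Subgroup.card_eq_card_quotient_mul_card_subgroup θ.ker,
    Nat.card_congr (QuotientGroup.quotientKerEquivOfSurjective θ hs).toEquiv, hk, card_range_cG hn]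

lemma conj_mk_eq_cG (s : SpecialLinearGroup (Fin n) F) :
    MulAut.conj (QuotientGroup.mk s : ProjectiveSpecialLinearGroup (Fin n) F) =
      cG (SpecialLinearGroup.toGL s) := by
  apply mulAut_psl_ext
  intro t
  rw [cG_mk, conjSL_toGL, MulAut.conj_apply]
  rfl

lemma conj_injective (hn : 1 ≤ n) :
    Function.Injective (MulAut.conj : ProjectiveSpecialLinearGroup (Fin n) F →* _) := by
  rw [injective_iff_map_eq_one]
  intro x hx
  obtain ⟨s, rfl⟩ := QuotientGroup.mk_surjective x
  rw [conj_mk_eq_cG] at hx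
  have h1 : SpecialLinearGroup.toGL s ∈ Subgroup.center (GL (Fin n) F) := by
    rw [← ker_cG hn]; exact hx
  rw [QuotientGroup.eq_one_iff, Subgroup.mem_center_iff]
  intro t
  have h2 := Subgroup.mem_center_iff.mp h1 (SpecialLinearGroup.toGL t)
  rw [← map_mul, ← map_mul] at h2
  exact SpecialLinearGroup.toGL_injective h2

theorem out_of_theta [Fintype F] {E : Type*} [Group E] [Finite E] (hn : 1 ≤ n)
    (θ : MulAut (ProjectiveSpecialLinearGroup (Fin n) F) →* E) (hs : Function.Surjective θ)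
    (hk : θ.ker = (cG : GL (Fin n) F →* _).range) :
    ∃ φ : Cfsg.Out (ProjectiveSpecialLinearGroup (Fin n) F) →* E, Function.Surjective φ ∧
      IsCyclic φ.ker ∧ Nat.card φ.ker = Nat.gcd n (Fintype.card F - 1) := by
  have : Nonempty (Fin n) := ⟨⟨0, hn⟩⟩
  have : Finite (SpecialLinearGroup (Fin n) F) := Subtype.finite
  have hInn : Cfsg.Inn (ProjectiveSpecialLinearGroup (Fin n) F) ≤ θ.ker := by
    rintro _ ⟨x, rfl⟩
    obtain ⟨s, rfl⟩ := QuotientGroup.mk_surjective x
    rw [hk, conj_mk_eq_cG]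
    exact ⟨_, rfl⟩
  let φ := QuotientGroup.lift (Cfsg.Inn (ProjectiveSpecialLinearGroup (Fin n) F)) θ hInn
  have hφs : Function.Surjective φ := QuotientGroup.lift_surjective_of_surjective _ θ hs hInn
  let κ : GL (Fin n) F →* Cfsg.Out (ProjectiveSpecialLinearGroup (Fin n) F) :=
    (QuotientGroup.mk' _).comp cG
  have hker : φ.ker = κ.range := by
    rw [QuotientGroup.ker_lift, hk, MonoidHom.map_range]
  have hκ : (GeneralLinearGroup.det : GL (Fin n) F →* Fˣ).ker ≤ κ.ker := by
    intro g hg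
    rw [← Cfsg.Agent.Lib.Helper5.range_toGL_eq_ker_det] at hg
    obtain ⟨s, rfl⟩ := hg
    rw [MonoidHom.mem_ker]
    show QuotientGroup.mk' _ (cG (SpecialLinearGroup.toGL s)) = 1
    rw [← conj_mk_eq_cG]
    exact (QuotientGroup.eq_one_iff _).mpr ⟨_, rfl⟩
  let κ' : Fˣ →* Cfsg.Out (ProjectiveSpecialLinearGroup (Fin n) F) :=
    (GeneralLinearGroup.det : GL (Fin n) F →* Fˣ).liftOfSurjective
      GeneralLinearGroup.det_surjective ⟨κ, hκ⟩
  have hκ' : ∀ g, κ' (GeneralLinearGroup.det g) = κ g := fun g =>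
    MonoidHom.liftOfRightInverse_comp_apply _ _ _ ⟨κ, hκ⟩ g
  have hrange : κ.range = κ'.range := by
    ext y
    constructor
    · rintro ⟨g, rfl⟩
      exact ⟨_, hκ' g⟩
    · rintro ⟨u, rfl⟩
      obtain ⟨g, rfl⟩ := GeneralLinearGroup.det_surjective (n := Fin n) u
      exact ⟨g, (hκ' g).symm⟩
  have hcyc : IsCyclic κ'.range :=
    isCyclic_of_surjective κ'.rangeRestrict κ'.rangeRestrict_surjective
  refine ⟨φ, hφs, ?_, ?_⟩
  · rw [hker, hrange]; exact hcyc
  · have c1 := card_aut_of_theta hn θ hs hk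
    have c2 := Subgroup.card_eq_card_quotient_mul_card_subgroup
      (Cfsg.Inn (ProjectiveSpecialLinearGroup (Fin n) F))
    have c3 := Subgroup.card_eq_card_quotient_mul_card_subgroup φ.ker
    rw [Nat.card_congr (QuotientGroup.quotientKerEquivOfSurjective φ hφs).toEquiv] at c3
    have c4 : Nat.card (Cfsg.Inn (ProjectiveSpecialLinearGroup (Fin n) F)) =
        Nat.card (ProjectiveSpecialLinearGroup (Fin n) F) :=
      (Nat.card_congr (MonoidHom.ofInjective (conj_injective hn)).toEquiv).symm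
    have c5 := Subgroup.card_eq_card_quotient_mul_card_subgroup
      (Subgroup.center (SpecialLinearGroup (Fin n) F))
    rw [Cfsg.Agent.Lib.Helper5.card_center_SL, Fintype.card_fin] at c5
    rw [Cfsg.Agent.Lib.Helper5.card_PGL_eq_card_SL, c5] at c1
    rw [c2, c3, c4] at c1
    have hE : 0 < Nat.card E := Nat.card_pos
    have hP : 0 < Nat.card (ProjectiveSpecialLinearGroup (Fin n) F) := Nat.card_pos
    rw [Nat.gcd_comm]
    have c6 : Nat.card E * Nat.card (ProjectiveSpecialLinearGroup (Fin n) F) * Nat.card φ.ker =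
        Nat.card E * Nat.card (ProjectiveSpecialLinearGroup (Fin n) F) *
          (Fintype.card F - 1).gcd n := by
      have c1' : Nat.card E * Nat.card φ.ker * Nat.card (ProjectiveSpecialLinearGroup (Fin n) F) =
        Nat.card E * (Nat.card (ProjectiveSpecialLinearGroup (Fin n) F) * (Fintype.card F - 1).gcd n) := c1
      linarith
    exact Nat.eq_of_mul_eq_mul_left (Nat.mul_pos hE hP) c6

end Cfsg.Agent.Lib.Helper43.PA
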