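import Mathlib
import Cfsg.Agent.Lib.Helper43.PA.Basic
import Cfsg.Agent.Lib.Helper94.HermGen

set_option autoImplicit false

namespace Cfsg.Agent.Lib.Helper43.PA

open Matrix Module
open Cfsg.Agent.Lib.Helper94.U

section abstract

variable {F V : Type*} [Field F] [AddCommGroup V] [Module F V]
variable {σ : F →+* F} {B : V →ₛₗ[σ] V →ₗ[F] F}

lemma exists_orthonormal [Finite F] [FiniteDimensional F V] (H : HForm σ B) :
    ∀ k ≤ finrank F V, ∃ v : Fin k → V, (∀ i j, B (v i) (v j) = if i = j then 1 else 0) ∧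
      Split B (Submodule.span F (Set.range v)) := by
  intro k
  induction k with
  | zero =>
    intro _
    refine ⟨Fin.elim0, fun i => i.elim0, ?_⟩
    have : Set.range (Fin.elim0 : Fin 0 → V) = ∅ := Set.range_eq_empty _
    rw [this, Submodule.span_empty]
    exact split_bot
  | succ k ih =>
    intro hk
    obtain ⟨v, hv, hs⟩ := ih (by omega)
    have hne : Submodule.span F (Set.range v) ≠ ⊤ := by
      intro h
      have h1 := finrank_range_le_card (R := F) v
      unfold Set.finrank at h1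
      rw [h, finrank_top, Fintype.card_fin] at h1
      omega
    obtain ⟨u, hu, hun⟩ := hs.exists_nonisotropic H hne
    obtain ⟨c, hc⟩ := H.exists_norm (1 / B u u) (by rw [map_div₀, map_one, H.norm_fixed])
    have hu' : c • u ∈ perp B (Submodule.span F (Set.range v)) := Submodule.smul_mem _ _ hu
    have hn1 : B (c • u) (c • u) = 1 := by rw [H.norm_smul, hc, div_mul_cancel₀ _ hun]
    refine ⟨Fin.cons (c • u) v, ?_, ?_⟩
    · intro i j
      refine Fin.cases ?_ (fun i => ?_) i <;> refine Fin.cases ?_ (fun j => ?_) j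
      · simpa using hn1
      · rw [Fin.cons_zero, Fin.cons_succ, if_neg (Fin.succ_ne_zero j).symm]
        exact (mem_perp' H).1 hu' _ (Submodule.subset_span ⟨j, rfl⟩)
      · rw [Fin.cons_zero, Fin.cons_succ, if_neg (Fin.succ_ne_zero i)]
        exact hu' _ (Submodule.subset_span ⟨i, rfl⟩)
      · rw [Fin.cons_succ, Fin.cons_succ, hv]
        simp only [Fin.succ_inj]
    · rw [Fin.range_cons, Submodule.span_insert, sup_comm]
      exact hs.sup_singleton hu' H (by rw [hn1]; exact one_ne_zero)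

end abstract

variable {n : ℕ} {F : Type*} [Field F]

/-- the sesquilinear form of a matrix. -/
noncomputable def sesq (σ : F ≃+* F) (M : Matrix (Fin n) (Fin n) F) :
    (Fin n → F) →ₛₗ[(σ : F →+* F)] (Fin n → F) →ₗ[F] F :=
  LinearMap.mk₂'ₛₗ (σ : F →+* F) (RingHom.id F) (fun x y => (⇑σ ∘ x) ⬝ᵥ (M *ᵥ y))
    (fun x x' y => by
      have : (⇑σ ∘ (x + x')) = ⇑σ ∘ x + ⇑σ ∘ x' := by funext i; simp
      rw [this, add_dotProduct])
    (fun c x y => by
      have : (⇑σ ∘ (c • x)) = σ c • (⇑σ ∘ x) := by funext i; simp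
      rw [this, smul_dotProduct]; rfl)
    (fun x y y' => by rw [mulVec_add, dotProduct_add])
    (fun c x y => by rw [mulVec_smul, dotProduct_smul]; rfl)

lemma sesq_apply (σ : F ≃+* F) (M : Matrix (Fin n) (Fin n) F) (x y : Fin n → F) :
    sesq σ M x y = (⇑σ ∘ x) ⬝ᵥ (M *ᵥ y) := rfl

lemma sesq_hform (σ : F ≃+* F) (hσ : σ ≠ 1) (hσ2 : σ * σ = 1) (g : GL (Fin n) F)
    (hg : (g.1ᵀ).map σ = g.1) : HForm (σ : F →+* F) (sesq σ g.1) where
  ne_id := by
    intro h
    apply hσ
    ext t
    exact DFunLike.congr_fun h t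
  invol := fun a => DFunLike.congr_fun hσ2 a
  symm := by
    intro x y
    have hent : ∀ i j, σ (g.1 j i) = g.1 i j := fun i j => congrFun (congrFun hg i) j
    have hinv : ∀ a, σ (σ a) = a := fun a => DFunLike.congr_fun hσ2 a
    simp only [sesq_apply, dotProduct, mulVec, Function.comp, RingHom.coe_coe, map_sum, map_mul,
      hinv, hent, Finset.mul_sum]
    rw [Finset.sum_comm]
    apply Finset.sum_congr rfl
    intro i _
    apply Finset.sum_congr rfl
    intro j _
    ring
  nondeg := by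
    intro x hx
    have h1 : (⇑σ ∘ x) ᵥ* g.1 = 0 := by
      funext j
      have := hx (Pi.single j 1)
      rw [sesq_apply, dotProduct_mulVec] at this
      simpa using this
    have h2 : (⇑σ ∘ x) = 0 := by
      have := congrArg (fun v => v ᵥ* (g⁻¹ : GL (Fin n) F).1) h1
      simp only [vecMul_vecMul, zero_vecMul] at this
      rwa [← Units.val_mul, mul_inv_cancel, Units.val_one, vecMul_one] at this
    funext i
    have := congrFun h2 i
    simpa using this

/-- a non-degenerate Hermitian matrix over a finite field is `h h^*`. -/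
theorem herm_decomp [Finite F] (σ : F ≃+* F) (hσ : σ ≠ 1) (hσ2 : σ * σ = 1) (g : GL (Fin n) F)
    (hg : (g.1ᵀ).map σ = g.1) : ∃ h : GL (Fin n) F, g.1 = h.1 * (h.1ᵀ).map σ := by
  have H := sesq_hform σ hσ hσ2 g hg
  obtain ⟨v, hv, -⟩ := exists_orthonormal H n (by simp)
  let P : Matrix (Fin n) (Fin n) F := (Matrix.of v)ᵀ
  have hP : (Pᵀ).map σ * g.1 * P = 1 := by
    ext i j
    have := hv i j
    rw [sesq_apply] at this
    rw [Matrix.one_apply, ← this, Matrix.mul_assoc, Matrix.mul_apply, dotProduct]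
    apply Finset.sum_congr rfl
    intro a _
    simp [P, Matrix.mul_apply, mulVec, dotProduct]
  have hPu : IsUnit P := (Matrix.isUnit_iff_isUnit_det _).2 (Matrix.isUnit_det_of_left_inverse hP)
  let Pu : GL (Fin n) F := hPu.unit
  have hinv : ∀ a, σ (σ a) = a := fun a => DFunLike.congr_fun hσ2 a
  have e1 : (mapGL σ (invTGL Pu))⁻¹ * g * Pu = 1 := by
    apply Units.ext
    rw [Units.val_mul, Units.val_mul, ← map_inv, mapGL_coe, invTGL_inv_coe]
    exact hP
  refine ⟨mapGL σ (invTGL Pu), ?_⟩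
  have e2 : g = mapGL σ (invTGL Pu) * Pu⁻¹ := by
    rw [eq_mul_inv_iff_mul_eq]
    rw [mul_assoc, inv_mul_eq_one] at e1
    exact e1.symm
  have e3 : (((mapGL σ (invTGL Pu)).1)ᵀ).map σ = (Pu⁻¹ : GL (Fin n) F).1 := by
    rw [mapGL_coe, invTGL_coe]
    ext i j
    simp [hinv]
  rw [e3, ← Units.val_mul, ← e2]

end Cfsg.Agent.Lib.Helper43.PA
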