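import Mathlib
import Cfsg.Agent.Lib.Helper43.PA.H90Scalar
import Cfsg.Agent.Lib.Helper43.PA.HermDecomp
import Cfsg.Agent.Lib.Helper43.PA.Main
import Cfsg.Agent.Lib.Helper43.PA.Count2

set_option autoImplicit false

namespace Cfsg.Agent.Lib.Helper43.PA

open Matrix

variable {n : ℕ} {F : Type*} [Field F]

lemma eq_fA_of_isStd {σ : F ≃+* F} {φ : MulAut (ProjectiveSpecialLinearGroup (Fin n) F)}
    (h : Cfsg.IsStdFieldAutPSL σ φ) : φ = fA σ := by
  apply mulAut_psl_ext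
  intro s
  rw [fA_mk]
  exact h s (fieldSL σ s) rfl

lemma eq_gam_of_isInvT {γ : MulAut (ProjectiveSpecialLinearGroup (Fin n) F)}
    (h : Cfsg.IsInverseTransposeAutPSL γ) : γ = gam := by
  apply mulAut_psl_ext
  intro s
  rw [gam_mk]
  exact h s (invT s) rfl

lemma isInnerDiagonal_iff {β : MulAut (ProjectiveSpecialLinearGroup (Fin n) F)} :
    Cfsg.IsInnerDiagonalAutPSL β ↔ β ∈ (cG : GL (Fin n) F →* _).range := by
  constructor
  · rintro ⟨g, hg⟩
    refine ⟨g, ?_⟩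
    apply mulAut_psl_ext
    intro s
    rw [cG_mk]
    exact (hg s (conjSL g s) rfl).symm
  · rintro ⟨g, rfl⟩
    exact isInnerDiagonal_cG g

lemma inndiagPSL_eq : Cfsg.inndiagPSL n F = (cG : GL (Fin n) F →* _).range := by
  unfold Cfsg.inndiagPSL Cfsg.autSubgroupOf
  have : {β : MulAut (ProjectiveSpecialLinearGroup (Fin n) F) | Cfsg.IsInnerDiagonalAutPSL β} =
      ((cG : GL (Fin n) F →* _).range : Set _) := by
    ext β
    exact isInnerDiagonal_iff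
  rw [this, Subgroup.closure_eq]

theorem range_cG_normal [Fintype F] {p f : ℕ} [hp : Fact p.Prime] (hF : Fintype.card F = p ^ f)
    (hf : 1 ≤ f) (hn : 2 ≤ n) : ((cG : GL (Fin n) F →* _).range).Normal := by
  constructor
  intro d hd α
  obtain ⟨g, σ, h | h⟩ := aut_factor hF hf hn α
  · rw [h]
    have h1 := fA_normalizes σ hd
    have h2 : cG g * fA σ * d * (cG g * fA σ)⁻¹ = cG g * (fA σ * d * (fA σ)⁻¹) * (cG g)⁻¹ := by group
    rw [h2]
    exact Subgroup.mul_mem _ (Subgroup.mul_mem _ ⟨g, rfl⟩ h1) (Subgroup.inv_mem _ ⟨g, rfl⟩)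
  · rw [h]
    have h1 := fA_normalizes σ (gam_normalizes hd)
    have h2 : cG g * fA σ * gam * d * (cG g * fA σ * gam)⁻¹ =
        cG g * (fA σ * (gam * d * gam⁻¹) * (fA σ)⁻¹) * (cG g)⁻¹ := by group
    rw [h2]
    exact Subgroup.mul_mem _ (Subgroup.mul_mem _ ⟨g, rfl⟩ h1) (Subgroup.inv_mem _ ⟨g, rfl⟩)

lemma fA_injective (hn : 2 ≤ n) :
    Function.Injective (fA : (F ≃+* F) →* MulAut (ProjectiveSpecialLinearGroup (Fin n) F)) := by
  rw [injective_iff_map_eq_one]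
  intro σ h
  exact fA_mem_range_cG hn (h ▸ Subgroup.one_mem _)

lemma conj_fA (σ : F ≃+* F) (h : GL (Fin n) F) :
    cG h * fA σ * (cG h)⁻¹ = cG (h * (mapGL σ h)⁻¹) * fA σ := by
  rw [map_mul, map_inv, mul_assoc, mul_assoc, mul_right_inj, eq_inv_mul_iff_mul_eq, ← mul_assoc,
    ← fA_mul_cG, mul_inv_cancel_right]

/-- the field coset. -/
theorem field_coset [Finite F] (hn : 1 ≤ n) (σ : F ≃+* F) (k : ℕ) (hk : orderOf σ = k) (hk0 : 0 < k)
    (g : GL (Fin n) F) (h : (cG g * fA σ) ^ k = 1) :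
    ∃ h : GL (Fin n) F, cG g * fA σ = cG h * fA σ * (cG h)⁻¹ := by
  have hσ : σ ^ k = 1 := hk ▸ pow_orderOf_eq_one σ
  rw [pow_cG_fA, hσ, map_one, mul_one] at h
  have h1 : nrm σ g k ∈ (cG : GL (Fin n) F →* _).ker := h
  rw [ker_cG hn] at h1
  obtain ⟨u, hu⟩ := exists_scGL_of_mem_center h1 hn
  have h2 : uM σ u = u := by
    apply scGL_injective hn
    rw [← mapGL_scGL]
    have e1 := nrm_succ σ g k
    rw [nrm_succ', hσ, mapGL_one', hu, scGL_comm] at e1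
    exact (mul_left_cancel e1).symm
  obtain ⟨v, hv⟩ := exists_nU_eq σ k hk hk0 u⁻¹ (by rw [map_inv, h2])
  obtain ⟨h, hh⟩ := hilbert90_GL σ (scGL v * g) k hk hk0 (by
    rw [nrm_scGL_mul, hv, hu, ← map_mul, inv_mul_cancel, map_one])
  refine ⟨h, ?_⟩
  rw [conj_fA, ← hh, cG_scGL_mul]

lemma gf_mul_cG (σ : F ≃+* F) (h : GL (Fin n) F) :
    (fA σ * gam) * cG h = cG (mapGL σ (invTGL h)) * (fA σ * gam) := by
  rw [mul_assoc, gam_mul_cG, ← mul_assoc, fA_mul_cG, mul_assoc]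

lemma conj_gf (σ : F ≃+* F) (h : GL (Fin n) F) :
    cG h * (fA σ * gam) * (cG h)⁻¹ = cG (h * (mapGL σ (invTGL h))⁻¹) * (fA σ * gam) := by
  rw [map_mul, map_inv, mul_assoc (cG h), mul_assoc (cG h), mul_right_inj, eq_inv_mul_iff_mul_eq,
    ← mul_assoc, ← gf_mul_cG, mul_inv_cancel_right]

lemma gf_sq (σ : F ≃+* F) (hσ2 : σ * σ = 1) (g : GL (Fin n) F) :
    (cG g * (fA σ * gam)) ^ 2 = cG (g * mapGL σ (invTGL g)) := by
  have h1 : (fA σ * gam : MulAut (ProjectiveSpecialLinearGroup (Fin n) F)) * (fA σ * gam) = 1 := by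
    rw [mul_assoc, ← mul_assoc gam, gam_mul_fA, mul_assoc, gam_mul_gam, mul_one, ← map_mul, hσ2,
      map_one]
  rw [sq, mul_assoc, ← mul_assoc _ (cG g), gf_mul_cG, mul_assoc, h1, mul_one, map_mul]

lemma scGL_mul_coe (u : Fˣ) (g : GL (Fin n) F) : (scGL u * g).1 = (u : F) • g.1 := by
  rw [Units.val_mul, scGL_coe]
  ext i j
  simp [Matrix.scalar_apply, Matrix.diagonal_mul]

/-- the graph-field coset. -/
theorem gf_coset [Finite F] (hn : 1 ≤ n) (σ : F ≃+* F) (hσ : σ ≠ 1) (hσ2 : σ * σ = 1)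
    (g : GL (Fin n) F) (h : (cG g * (fA σ * gam)) ^ 2 = 1) :
    ∃ h : GL (Fin n) F, cG g * (fA σ * gam) = cG h * (fA σ * gam) * (cG h)⁻¹ := by
  have hinv : ∀ a, σ (σ a) = a := fun a => DFunLike.congr_fun hσ2 a
  rw [gf_sq σ hσ2] at h
  have h1 : g * mapGL σ (invTGL g) ∈ (cG : GL (Fin n) F →* _).ker := h
  rw [ker_cG hn] at h1
  obtain ⟨u, hu⟩ := exists_scGL_of_mem_center h1 hn
  have e1 : g = scGL u * (mapGL σ (invTGL g))⁻¹ := by rw [← hu, mul_inv_cancel_right]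
  have e1' : g.1 = (u : F) • (g.1ᵀ).map σ := by
    have := congrArg Units.val e1
    rwa [scGL_mul_coe, ← map_inv, mapGL_coe, invTGL_inv_coe] at this
  have e2 : (mapGL σ (invTGL g))⁻¹ = scGL (uM σ u) * g := by
    apply Units.ext
    rw [scGL_mul_coe, ← map_inv, mapGL_coe, invTGL_inv_coe, uM_coe]
    ext i j
    have := congrFun (congrFun e1' j) i
    simp only [Matrix.smul_apply, Matrix.map_apply, Matrix.transpose_apply, smul_eq_mul] at this ⊢
    rw [this, map_mul, hinv]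
  have e3 : u * uM σ u = 1 := by
    apply scGL_injective hn
    rw [e2, ← mul_assoc, ← map_mul] at e1
    rw [map_one]
    exact (mul_eq_right.1 e1.symm)
  have hord : orderOf σ = 2 := orderOf_eq_prime (by rw [sq]; exact hσ2) hσ
  obtain ⟨v, hv⟩ := hilbert90_units σ u 2 hord (by norm_num) (by
    simp only [nU_succ, nU_zero, map_one, mul_one]
    exact e3)
  have hherm : (((scGL v⁻¹ * g).1)ᵀ).map σ = (scGL v⁻¹ * g).1 := by
    rw [scGL_mul_coe]
    ext i j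
    have := congrFun (congrFun e1' i) j
    simp only [Matrix.smul_apply, Matrix.map_apply, Matrix.transpose_apply, smul_eq_mul] at this ⊢
    rw [this, hv, map_mul]
    have hv0 : (v : F) ≠ 0 := v.ne_zero
    have hv1 : σ (v : F) ≠ 0 := by simp
    simp only [Units.val_mul, Units.val_inv_eq_inv_val, uM_coe, map_inv₀]
    field_simp
  obtain ⟨h, hh⟩ := herm_decomp σ hσ hσ2 (scGL v⁻¹ * g) hherm
  refine ⟨h, ?_⟩
  have e4 : scGL v⁻¹ * g = h * (mapGL σ (invTGL h))⁻¹ := by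
    apply Units.ext
    rw [hh, Units.val_mul, ← map_inv, mapGL_coe, invTGL_inv_coe]
  rw [conj_gf, ← e4, cG_scGL_mul]

lemma conj_transport {A : Type*} [Group A] (D : Subgroup A) [hD : D.Normal] {α x x₀ δ : A} {r : ℕ}
    (e1 : α * x * α⁻¹ = x₀) (hδ : δ ∈ D)
    (key : ∀ d ∈ D, (d * x₀) ^ r = 1 → ∃ h ∈ D, d * x₀ = h * x₀ * h⁻¹) (hy : (δ * x) ^ r = 1) :
    ∃ h ∈ D, δ * x = h * x * h⁻¹ := by
  have h1 : (α * δ * α⁻¹) * x₀ = α * (δ * x) * α⁻¹ := by rw [← e1]; group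
  obtain ⟨h, hh, e⟩ := key (α * δ * α⁻¹) (hD.conj_mem δ hδ α) (by
    rw [h1, conj_pow, hy, mul_one, mul_inv_cancel])
  refine ⟨α⁻¹ * h * α, ?_, ?_⟩
  · have := hD.conj_mem h hh α⁻¹
    rwa [inv_inv] at this
  · have h2 : δ * x = α⁻¹ * ((α * δ * α⁻¹) * x₀) * α := by rw [h1]; group
    rw [h2, e, ← e1]
    group

lemma orderOf_conj' {A : Type*} [Group A] (α x : A) : orderOf (α * x * α⁻¹) = orderOf x := by
  rw [orderOf_eq_orderOf_iff]
  intro k
  rw [conj_pow, conj_eq_one_iff]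

/-- a graph-field automorphism of prime order has order two. -/
lemma gf_order (hn : 3 ≤ n) (σ : F ≃+* F) {r : ℕ} (hr : r.Prime)
    (h : orderOf (fA σ * gam : MulAut (ProjectiveSpecialLinearGroup (Fin n) F)) = r) :
    r = 2 ∧ σ * σ = 1 := by
  have hc : Commute (fA σ : MulAut (ProjectiveSpecialLinearGroup (Fin n) F)) gam :=
    (gam_mul_fA σ).symm
  have h1 : (fA σ * gam : MulAut (ProjectiveSpecialLinearGroup (Fin n) F)) ^ r = 1 :=
    h ▸ pow_orderOf_eq_one _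
  rw [hc.mul_pow, ← map_pow] at h1
  have hg2 : (gam : MulAut (ProjectiveSpecialLinearGroup (Fin n) F)) ^ 2 = 1 := by
    rw [sq]; exact gam_mul_gam
  rcases hr.eq_two_or_odd' with h2 | ⟨m, hm⟩
  · refine ⟨h2, ?_⟩
    subst h2
    rw [hg2, mul_one] at h1
    rw [← sq]
    exact fA_injective (n := n) (by omega) (by rw [h1, map_one])
  · exfalso
    rw [hm, pow_succ gam, pow_mul, hg2, one_pow, one_mul] at h1
    exact fA_gam_not_mem_range_cG hn _ (h1 ▸ Subgroup.one_mem _)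

/-- S2697 in terms of `cG.range`. -/
theorem coset_conj [Fintype F] {p f : ℕ} [hp : Fact p.Prime] (hF : Fintype.card F = p ^ f)
    (hf : 1 ≤ f) (hn : 2 ≤ n) (x δ : MulAut (ProjectiveSpecialLinearGroup (Fin n) F))
    (hx : Cfsg.IsFieldAutClassPSL x ∨ Cfsg.IsGraphFieldAutClassPSL x) {r : ℕ} (hr : r.Prime)
    (hxr : orderOf x = r) (hδ : δ ∈ (cG : GL (Fin n) F →* _).range) (hy : orderOf (δ * x) = r) :
    ∃ h ∈ (cG : GL (Fin n) F →* _).range, δ * x = h * x * h⁻¹ := by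
  have hD := range_cG_normal hF hf hn
  have hy' : (δ * x) ^ r = 1 := hy ▸ pow_orderOf_eq_one _
  rcases hx with ⟨α, σ, hσ, hstd⟩ | ⟨hn3, α, φ, γ, σ, hσ, hstd, hγ, e⟩
  · have e1 := eq_fA_of_isStd hstd
    have hord : orderOf σ = r := by
      rw [← orderOf_injective fA (fA_injective hn) σ, ← e1, orderOf_conj', hxr]
    refine conj_transport _ e1 hδ ?_ hy'
    rintro _ ⟨g, rfl⟩ hg
    obtain ⟨h, hh⟩ := field_coset (by omega) σ r hord hr.pos g hg
    exact ⟨cG h, ⟨h, rfl⟩, hh⟩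
  · rw [eq_fA_of_isStd hstd, eq_gam_of_isInvT hγ] at e
    have hord : orderOf (fA σ * gam : MulAut (ProjectiveSpecialLinearGroup (Fin n) F)) = r := by
      rw [← e, orderOf_conj', hxr]
    obtain ⟨rfl, hσ2⟩ := gf_order hn3 σ hr hord
    refine conj_transport _ e hδ ?_ hy'
    rintro _ ⟨g, rfl⟩ hg
    obtain ⟨h, hh⟩ := gf_coset (by omega) σ hσ hσ2 g hg
    exact ⟨cG h, ⟨h, rfl⟩, hh⟩

end Cfsg.Agent.Lib.Helper43.PA
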