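import Mathlib
import Cfsg.Prelude.Def_LieTypeDatum

set_option autoImplicit false

namespace Cfsg.Agent.Lib.Helper43.PA

lemma card_eq_of_surj {G X Y : Type*} (f : G → X) (g : G → Y) (hf : Function.Surjective f)
    (hg : Function.Surjective g) (h : ∀ a b, f a = f b ↔ g a = g b) : Nat.card X = Nat.card Y := by
  refine Nat.card_congr (Equiv.ofBijective (fun x => g (Function.surjInv hf x)) ⟨?_, ?_⟩)
  · intro x x' hx
    have := (h _ _).2 hx
    rwa [Function.surjInv_eq hf, Function.surjInv_eq hf] at this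
  · intro y
    obtain ⟨a, rfl⟩ := hg y
    refine ⟨f a, ?_⟩
    apply (h _ _).1
    rw [Function.surjInv_eq hf]

section

variable {X : Type*} [Group X]

lemma isConjUnder_conj_iff (N : Subgroup X) [hN : N.Normal] (α y z : X) :
    Cfsg.IsConjUnder N (α * y * α⁻¹) (α * z * α⁻¹) ↔ Cfsg.IsConjUnder N y z := by
  constructor
  · rintro ⟨h, hh, e⟩
    refine ⟨α⁻¹ * h * α, ?_, ?_⟩
    · have := hN.conj_mem h hh α⁻¹
      rwa [inv_inv] at this
    · have : z = α⁻¹ * (α * z * α⁻¹) * α := by group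
      rw [this, e]; group
  · rintro ⟨h, hh, e⟩
    refine ⟨α * h * α⁻¹, hN.conj_mem h hh α, ?_⟩
    rw [e]; group

lemma isConjUnder_equivalence (K : Subgroup X) : Equivalence (Cfsg.IsConjUnder K) where
  refl x := ⟨1, K.one_mem, by simp⟩
  symm := by
    rintro x y ⟨h, hh, e⟩
    exact ⟨h⁻¹, K.inv_mem hh, by rw [e]; group⟩
  trans := by
    rintro x y z ⟨h, hh, e⟩ ⟨h', hh', e'⟩
    exact ⟨h' * h, K.mul_mem hh' hh, by rw [e', e]; group⟩

theorem splitClassCount_conj (H K : Subgroup X) [H.Normal] [K.Normal] (α x : X) :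
    Cfsg.splitClassCount H K (α * x * α⁻¹) = Cfsg.splitClassCount H K x := by
  unfold Cfsg.splitClassCount
  symm
  refine Nat.card_congr (Quot.congr (Equiv.subtypeEquiv (MulAut.conj α).toEquiv (fun y => ?_)) ?_)
  · exact (isConjUnder_conj_iff H α x y).symm
  · intro y z
    exact (isConjUnder_conj_iff K α y.1 z.1).symm

theorem splitClassCount_eq_index {G A : Type*} [Group G] [CommGroup A] (c : G →* X) (d : G →* A)
    (hd : Function.Surjective d) (x : X) :
    Cfsg.splitClassCount c.range (d.ker.map c) x =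
      (((Subgroup.centralizer {x}).comap c).map d).index := by
  unfold Cfsg.splitClassCount
  rw [Subgroup.index_eq_card]
  let r := fun y z : {y : X // Cfsg.IsConjUnder c.range x y} => Cfsg.IsConjUnder (d.ker.map c) y.1 z.1
  have hr : Equivalence r :=
    ⟨fun y => (isConjUnder_equivalence _).refl y.1, fun h => (isConjUnder_equivalence _).symm h,
      fun h h' => (isConjUnder_equivalence _).trans h h'⟩
  let rep : G → {y : X // Cfsg.IsConjUnder c.range x y} :=
    fun g => ⟨c g * x * (c g)⁻¹, c g, ⟨g, rfl⟩, rfl⟩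
  refine card_eq_of_surj (fun g => Quot.mk r (rep g))
    (fun g => (QuotientGroup.mk (d g) : A ⧸ ((Subgroup.centralizer {x}).comap c).map d)) ?_ ?_ ?_
  · intro q
    induction q using Quot.ind with
    | mk y =>
      obtain ⟨y, h, ⟨g, rfl⟩, rfl⟩ := y
      exact ⟨g, rfl⟩
  · intro q
    induction q using QuotientGroup.induction_on with
    | H a =>
      obtain ⟨g, rfl⟩ := hd a
      exact ⟨g, rfl⟩
  · intro g g'
    rw [Quot.eq, hr.eqvGen_iff, QuotientGroup.eq]
    constructor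
    · rintro ⟨_, ⟨k, hk, rfl⟩, e⟩
      refine ⟨g⁻¹ * k⁻¹ * g', ?_, ?_⟩
      · show g⁻¹ * k⁻¹ * g' ∈ Subgroup.comap c (Subgroup.centralizer {x})
        rw [Subgroup.mem_comap, Subgroup.mem_centralizer_singleton_iff]
        simp only [map_mul, map_inv]
        have e' : c g' * x * (c g')⁻¹ = c k * (c g * x * (c g)⁻¹) * (c k)⁻¹ := e
        have e2 : x * ((c g)⁻¹ * (c k)⁻¹ * c g') = (c g)⁻¹ * (c k)⁻¹ *
            (c k * (c g * x * (c g)⁻¹) * (c k)⁻¹) * c g' := by group
        rw [e2, ← e']; group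
      · have hk' : d k = 1 := hk
        simp [hk']
    · rintro ⟨c₀, hc₀, e⟩
      have hc₀' : c₀ ∈ Subgroup.comap c (Subgroup.centralizer {x}) := hc₀
      rw [Subgroup.mem_comap, Subgroup.mem_centralizer_singleton_iff] at hc₀'
      refine ⟨c (g' * c₀⁻¹ * g⁻¹), ⟨_, ?_, rfl⟩, ?_⟩
      · show d (g' * c₀⁻¹ * g⁻¹) = 1
        simp only [map_mul, map_inv, e]
        rw [_root_.mul_inv_rev, inv_inv]
        simp [mul_comm]
      · show c g' * x * (c g')⁻¹ = c (g' * c₀⁻¹ * g⁻¹) * (c g * x * (c g)⁻¹) * (c (g' * c₀⁻¹ * g⁻¹))⁻¹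
        simp only [map_mul, map_inv]
        have e2 : c g' * (c c₀)⁻¹ * (c g)⁻¹ * (c g * x * (c g)⁻¹) * (c g' * (c c₀)⁻¹ * (c g)⁻¹)⁻¹ =
            c g' * ((c c₀)⁻¹ * (x * c c₀)) * (c g')⁻¹ := by group
        rw [e2, ← hc₀']; group

theorem centralizer_conj_equiv (D : Subgroup X) [hD : D.Normal] (α x : X) :
    Nonempty (↥(D ⊓ Subgroup.centralizer {x}) ≃* ↥(D ⊓ Subgroup.centralizer {α * x * α⁻¹})) := by
  have h : (D ⊓ Subgroup.centralizer {x}).map (MulAut.conj α).toMonoidHom =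
      D ⊓ Subgroup.centralizer {α * x * α⁻¹} := by
    ext y
    constructor
    · rintro ⟨z, ⟨hz1, hz2⟩, rfl⟩
      refine ⟨hD.conj_mem z hz1 α, ?_⟩
      have hz2' := Subgroup.mem_centralizer_singleton_iff.1 hz2
      apply Subgroup.mem_centralizer_singleton_iff.2
      show α * z * α⁻¹ * (α * x * α⁻¹) = α * x * α⁻¹ * (α * z * α⁻¹)
      have e1 : α * x * α⁻¹ * (α * z * α⁻¹) = α * (x * z) * α⁻¹ := by group
      rw [e1, ← hz2']; group
    · rintro ⟨hy1, hy2⟩
      have hy2' := Subgroup.mem_centralizer_singleton_iff.1 hy2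
      refine ⟨α⁻¹ * y * α, ⟨?_, ?_⟩, ?_⟩
      · have := hD.conj_mem y hy1 α⁻¹
        rwa [inv_inv] at this
      · apply Subgroup.mem_centralizer_singleton_iff.2
        have e1 : x * (α⁻¹ * y * α) = α⁻¹ * (α * x * α⁻¹ * y) * α := by group
        rw [e1, ← hy2']; group
      · show α * (α⁻¹ * y * α) * α⁻¹ = y
        group
  exact ⟨((MulAut.conj α).subgroupMap _).trans (MulEquiv.subgroupCongr h)⟩

end

/-- index of `G^n B` in a finite cyclic group. -/
theorem cyclic_index {G : Type*} [CommGroup G] [IsCyclic G] [Finite G] (n : ℕ) (B : Subgroup G) :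
    ((powMonoidHom n : G →* G).range ⊔ B).index = Nat.gcd n B.index := by
  have h1 := Subgroup.index_map (powMonoidHom n : G →* G).range (QuotientGroup.mk' B)
  rw [QuotientGroup.ker_mk', MonoidHom.range_eq_top.2 (QuotientGroup.mk'_surjective B),
    Subgroup.index_top, mul_one] at h1
  rw [← h1]
  have h2 : (powMonoidHom n : G →* G).range.map (QuotientGroup.mk' B) =
      (powMonoidHom n : G ⧸ B →* G ⧸ B).range := by
    ext y
    constructor
    · rintro ⟨_, ⟨z, rfl⟩, rfl⟩
      exact ⟨QuotientGroup.mk' B z, by simp⟩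
    · rintro ⟨z, rfl⟩
      obtain ⟨w, rfl⟩ := QuotientGroup.mk'_surjective B z
      exact ⟨w ^ n, ⟨w, rfl⟩, by simp⟩
  rw [h2, IsCyclic.index_powMonoidHom_range, Nat.gcd_comm, Subgroup.index_eq_card]

end Cfsg.Agent.Lib.Helper43.PA
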