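import Mathlib
import Cfsg.Agent.Lib.Helper43.PA.Coset
import Cfsg.Agent.Lib.Helper43.PA.Split
import Cfsg.Agent.Lib.Helper43.PA.FixField

set_option autoImplicit false

namespace Cfsg.Agent.Lib.Helper43.PA

open Matrix

variable {n : ℕ} {F : Type*} [Field F]

/-- dilations `diag(w,1,…,1)`. -/
noncomputable def dil (i0 : Fin n) : Fˣ →* GL (Fin n) F :=
  Units.map ((Matrix.diagonalRingHom (Fin n) F).toMonoidHom.comp (MonoidHom.mulSingle (fun _ => F) i0))

lemma dil_coe (i0 : Fin n) (w : Fˣ) : (dil i0 w).1 = Matrix.diagonal (Pi.mulSingle i0 (w : F)) := rfl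

lemma det_dil (i0 : Fin n) (w : Fˣ) : Matrix.GeneralLinearGroup.det (dil i0 w) = w := by
  apply Units.ext
  show (dil i0 w).1.det = w
  rw [dil_coe, Matrix.det_diagonal, Fintype.prod_pi_mulSingle']

lemma det_surjective (hn : 1 ≤ n) :
    Function.Surjective (Matrix.GeneralLinearGroup.det : GL (Fin n) F →* Fˣ) :=
  fun w => ⟨dil ⟨0, by omega⟩ w, det_dil _ w⟩

lemma mapGL_dil (σ : F ≃+* F) (i0 : Fin n) (w : Fˣ) : mapGL σ (dil i0 w) = dil i0 (uM σ w) := by
  apply Units.ext
  rw [mapGL_coe, dil_coe, dil_coe, uM_coe]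
  ext i j
  by_cases h : i = j
  · subst h
    by_cases h2 : i = i0
    · subst h2; simp
    · simp [Pi.mulSingle_eq_of_ne h2]
  · simp [Matrix.diagonal_apply_ne _ h]

lemma det_scGL (u : Fˣ) : Matrix.GeneralLinearGroup.det (scGL u : GL (Fin n) F) = u ^ n := by
  apply Units.ext
  show (scGL u : GL (Fin n) F).1.det = _
  rw [scGL_coe]
  simp [Matrix.scalar_apply, Matrix.det_diagonal]

lemma det_mapGL (σ : F ≃+* F) (g : GL (Fin n) F) :
    Matrix.GeneralLinearGroup.det (mapGL σ g) = uM σ (Matrix.GeneralLinearGroup.det g) := by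
  apply Units.ext
  show (mapGL σ g).1.det = σ g.1.det
  rw [mapGL_coe]
  exact ((σ : F →+* F).map_det g.1).symm

lemma inn_eq_map (hn : 1 ≤ n) : Cfsg.Inn (ProjectiveSpecialLinearGroup (Fin n) F) =
    (Matrix.GeneralLinearGroup.det : GL (Fin n) F →* Fˣ).ker.map cG := by
  ext y
  constructor
  · rintro ⟨t, rfl⟩
    induction t using QuotientGroup.induction_on with
    | H s =>
      refine ⟨SpecialLinearGroup.toGL s, ?_, (conj_mk_eq_cG s).symm⟩
      apply Units.ext
      exact s.2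
  · rintro ⟨g, hg, rfl⟩
    have hdet : g.1.det = 1 := congrArg Units.val hg
    refine ⟨QuotientGroup.mk (mkSL g.1 hdet), ?_⟩
    rw [conj_mk_eq_cG]
    congr 1
    apply Units.ext
    rfl

lemma mem_cent_iff {x : MulAut (ProjectiveSpecialLinearGroup (Fin n) F)} {g : GL (Fin n) F} :
    g ∈ (Subgroup.centralizer {x}).comap cG ↔ cG g * x = x * cG g := by
  rw [Subgroup.mem_comap, Subgroup.mem_centralizer_singleton_iff]

lemma mapGL_pow_of_scalar (σ : F ≃+* F) {g : GL (Fin n) F} {u : Fˣ} (h : mapGL σ g = scGL u * g)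
    (j : ℕ) : mapGL (σ ^ j) g = scGL (nU σ u j) * g := by
  induction j with
  | zero => simp [nU_zero, mapGL_one']
  | succ j ih =>
    rw [pow_succ', mapGL_mul', ih, map_mul, mapGL_scGL, h, nU_succ, map_mul, ← mul_assoc,
      ← map_mul, ← map_mul, mul_comm]

/-- the matrices inducing automorphisms commuting with the field automorphism. -/
theorem mem_cent_fA_iff (hn : 1 ≤ n) (σ : F ≃+* F) (hfin : 0 < orderOf σ) (g : GL (Fin n) F) :
    g ∈ (Subgroup.centralizer {(fA σ : MulAut (ProjectiveSpecialLinearGroup (Fin n) F))}).comap cG ↔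
      ∃ v : Fˣ, mapGL σ (scGL v * g) = scGL v * g := by
  rw [mem_cent_iff]
  constructor
  · intro h
    rw [fA_mul_cG, mul_left_inj] at h
    obtain ⟨u, hu⟩ := exists_scGL_of_cG_eq hn h.symm
    have h1 := mapGL_pow_of_scalar σ hu (orderOf σ)
    rw [pow_orderOf_eq_one, mapGL_one'] at h1
    have h2 : nU σ u (orderOf σ) = 1 := by
      apply scGL_injective hn
      rw [map_one]
      exact mul_eq_right.1 h1.symm
    obtain ⟨v, hv⟩ := hilbert90_units σ u _ rfl hfin h2
    refine ⟨v, ?_⟩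
    rw [map_mul, mapGL_scGL, hu, ← mul_assoc, ← map_mul, hv, mul_comm, inv_mul_cancel_right]
  · rintro ⟨v, hv⟩
    rw [← cG_scGL_mul v g, fA_mul_cG, hv]

lemma exists_map_eq {F₀ : Type*} [Field F₀] (ι : F₀ →+* F) (σ : F ≃+* F)
    (hι : ∀ x, σ x = x ↔ ∃ y, ι y = x) (g : GL (Fin n) F) :
    mapGL σ g = g ↔ ∃ g₀ : GL (Fin n) F₀, Matrix.GeneralLinearGroup.map ι g₀ = g := by
  constructor
  · intro h
    have h1 : ∀ i j, ∃ y, ι y = g.1 i j := by
      intro i j
      rw [← hι]
      exact congrArg (fun g : GL (Fin n) F => g.1 i j) h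
    have h' : mapGL σ g⁻¹ = g⁻¹ := by rw [map_inv, h]
    have h2 : ∀ i j, ∃ y, ι y = (g⁻¹ : GL (Fin n) F).1 i j := by
      intro i j
      rw [← hι]
      exact congrArg (fun g : GL (Fin n) F => g.1 i j) h'
    choose M hM using h1
    choose M' hM' using h2
    have e1 : (Matrix.of M).map ι = g.1 := by ext i j; exact hM i j
    have e2 : (Matrix.of M').map ι = (g⁻¹ : GL (Fin n) F).1 := by ext i j; exact hM' i j
    have hinj : Function.Injective (fun A : Matrix (Fin n) (Fin n) F₀ => A.map ι) :=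
      Matrix.map_injective ι.injective
    refine ⟨⟨Matrix.of M, Matrix.of M', ?_, ?_⟩, Units.ext e1⟩
    · apply hinj
      show (Matrix.of M * Matrix.of M').map ι = (1 : Matrix (Fin n) (Fin n) F₀).map ι
      rw [Matrix.map_mul, e1, e2, ← Units.val_mul, mul_inv_cancel]
      simp
    · apply hinj
      show (Matrix.of M' * Matrix.of M).map ι = (1 : Matrix (Fin n) (Fin n) F₀).map ι
      rw [Matrix.map_mul, e1, e2, ← Units.val_mul, inv_mul_cancel]
      simp
  · rintro ⟨g₀, rfl⟩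
    apply Units.ext
    ext i j
    exact (hι _).2 ⟨g₀.1 i j, rfl⟩

/-- `C_{PGL_n(F)}(φ) ≅ PGL_n(F₀)`. -/
theorem cent_fA_equiv (hn : 1 ≤ n) (σ : F ≃+* F) (hfin : 0 < orderOf σ) {F₀ : Type*} [Field F₀]
    (ι : F₀ →+* F) (hι : ∀ x, σ x = x ↔ ∃ y, ι y = x) :
    Nonempty (↥((cG : GL (Fin n) F →* _).range ⊓
      Subgroup.centralizer {(fA σ : MulAut (ProjectiveSpecialLinearGroup (Fin n) F))}) ≃*
      Matrix.ProjGenLinGroup (Fin n) F₀) := by
  let ψ : GL (Fin n) F₀ →* MulAut (ProjectiveSpecialLinearGroup (Fin n) F) :=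
    cG.comp (Matrix.GeneralLinearGroup.map ι)
  have hrange : ψ.range = (cG : GL (Fin n) F →* _).range ⊓
      Subgroup.centralizer {(fA σ : MulAut (ProjectiveSpecialLinearGroup (Fin n) F))} := by
    ext y
    constructor
    · rintro ⟨g₀, rfl⟩
      refine ⟨⟨_, rfl⟩, ?_⟩
      have : Matrix.GeneralLinearGroup.map ι g₀ ∈ (Subgroup.centralizer
          {(fA σ : MulAut (ProjectiveSpecialLinearGroup (Fin n) F))}).comap cG := by
        rw [mem_cent_fA_iff hn σ hfin]
        refine ⟨1, ?_⟩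
        rw [map_one, one_mul]
        exact (exists_map_eq ι σ hι _).2 ⟨g₀, rfl⟩
      exact this
    · rintro ⟨⟨g, rfl⟩, hg⟩
      have hg' : g ∈ (Subgroup.centralizer
          {(fA σ : MulAut (ProjectiveSpecialLinearGroup (Fin n) F))}).comap cG := hg
      rw [mem_cent_fA_iff hn σ hfin] at hg'
      obtain ⟨v, hv⟩ := hg'
      obtain ⟨g₀, hg₀⟩ := (exists_map_eq ι σ hι _).1 hv
      exact ⟨g₀, by show cG (Matrix.GeneralLinearGroup.map ι g₀) = cG g; rw [hg₀, cG_scGL_mul]⟩
  have hker : ψ.ker = Subgroup.center (GL (Fin n) F₀) := by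
    ext g₀
    rw [MonoidHom.mem_ker]
    show cG (Matrix.GeneralLinearGroup.map ι g₀) = 1 ↔ _
    rw [← MonoidHom.mem_ker, ker_cG hn, GeneralLinearGroup.mem_center_iff_val_mem_range_scalar,
      GeneralLinearGroup.mem_center_iff_val_mem_range_scalar]
    constructor
    · rintro ⟨a, ha⟩
      refine ⟨g₀.1 ⟨0, by omega⟩ ⟨0, by omega⟩, ?_⟩
      ext i j
      apply ι.injective
      have h1 : ∀ i j, ι (g₀.1 i j) = (Matrix.scalar (Fin n) a) i j := by
        intro i j
        rw [ha]; rfl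
      rw [h1]
      by_cases h : i = j
      · subst h
        simp only [Matrix.scalar_apply, Matrix.diagonal_apply_eq]
        rw [h1]
        simp
      · simp [Matrix.scalar_apply, Matrix.diagonal_apply_ne _ h]
    · rintro ⟨a, ha⟩
      refine ⟨ι a, ?_⟩
      show _ = g₀.1.map ι
      rw [← ha]
      ext i j
      by_cases h : i = j
      · subst h; simp
      · simp [Matrix.scalar_apply, Matrix.diagonal_apply_ne _ h]
  refine ⟨((MulEquiv.subgroupCongr hrange).symm.trans
    (QuotientGroup.quotientKerEquivRange ψ).symm).trans (QuotientGroup.quotientMulEquivOfEq hker)⟩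

/-- determinants of the centraliser. -/
theorem det_cent_fA (hn : 1 ≤ n) (σ : F ≃+* F) (hfin : 0 < orderOf σ) :
    ((Subgroup.centralizer {(fA σ : MulAut (ProjectiveSpecialLinearGroup (Fin n) F))}).comap cG).map
      (Matrix.GeneralLinearGroup.det : GL (Fin n) F →* Fˣ) =
      (powMonoidHom n : Fˣ →* Fˣ).range ⊔ fixU σ := by
  apply le_antisymm
  · rintro _ ⟨g, hg, rfl⟩
    obtain ⟨v, hv⟩ := (mem_cent_fA_iff hn σ hfin g).1 hg
    have h1 : Matrix.GeneralLinearGroup.det g =
        (v⁻¹) ^ n * Matrix.GeneralLinearGroup.det (scGL v * g) := by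
      rw [map_mul, det_scGL, ← mul_assoc, ← mul_pow, inv_mul_cancel, one_pow, one_mul]
    rw [h1]
    refine Subgroup.mul_mem _ (Subgroup.mem_sup_left ⟨v⁻¹, rfl⟩) (Subgroup.mem_sup_right ?_)
    rw [mem_fixU, ← det_mapGL, hv]
  · rw [sup_le_iff]
    constructor
    · rintro _ ⟨u, rfl⟩
      refine ⟨scGL u, ?_, det_scGL u⟩
      apply (mem_cent_fA_iff hn σ hfin _).2
      refine ⟨u⁻¹, ?_⟩
      rw [← map_mul, inv_mul_cancel, map_one, map_one]
    · intro w hw
      refine ⟨dil ⟨0, by omega⟩ w, ?_, det_dil _ w⟩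
      apply (mem_cent_fA_iff hn σ hfin _).2
      refine ⟨1, ?_⟩
      rw [map_one, one_mul, mapGL_dil, mem_fixU.1 hw]

theorem split_fA [Fintype F] {p f : ℕ} [hp : Fact p.Prime] (hF : Fintype.card F = p ^ f)
    (hf : 1 ≤ f) (hn : 1 ≤ n) (σ : F ≃+* F) :
    Cfsg.splitClassCount (cG : GL (Fin n) F →* _).range
      (Cfsg.Inn (ProjectiveSpecialLinearGroup (Fin n) F)) (fA σ) =
      Nat.gcd n ((p ^ f - 1) / (p ^ (f / orderOf σ) - 1)) := by
  have hfin : Finite (F ≃+* F) := Finite.of_injective (fun e => (e : F → F)) DFunLike.coe_injective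
  rw [inn_eq_map hn, splitClassCount_eq_index _ _ (det_surjective hn), det_cent_fA hn σ (orderOf_pos σ),
    cyclic_index]
  congr 1
  have h1 := Subgroup.card_mul_index (fixU σ)
  rw [card_fixU hF hf, Nat.card_units, Nat.card_eq_fintype_card, hF] at h1
  rw [← h1]
  have hpos : 0 < p ^ (f / orderOf σ) - 1 := by
    have h2 : 0 < Nat.card (fixU σ) := Nat.card_pos
    rwa [card_fixU hF hf] at h2
  exact (Nat.mul_div_cancel_left _ hpos).symm

end Cfsg.Agent.Lib.Helper43.PA
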