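import Mathlib
import Cfsg.Agent.Lib.Helper43.PA.FieldCent
import Cfsg.Agent.Lib.Helper13.Herm

set_option autoImplicit false

namespace Cfsg.Agent.Lib.Helper43.PA

open Matrix

lemma cyclic_invol_unique {G : Type*} [Group G] [IsCyclic G] [Finite G] {a b : G} (ha : a ≠ 1)
    (hb : b ≠ 1) (ha2 : a ^ 2 = 1) (hb2 : b ^ 2 = 1) : a = b := by
  classical
  have := Fintype.ofFinite G
  by_contra hab
  have h1 := IsCyclic.card_pow_eq_one_le (α := G) (n := 2) (by norm_num)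
  have h2 : ({1, a, b} : Finset G) ⊆ Finset.univ.filter (fun x : G => x ^ 2 = 1) := by
    intro x hx
    simp only [Finset.mem_insert, Finset.mem_singleton] at hx
    rw [Finset.mem_filter]
    refine ⟨Finset.mem_univ _, ?_⟩
    rcases hx with rfl | rfl | rfl
    · simp
    · exact ha2
    · exact hb2
  have h3 : ({1, a, b} : Finset G).card = 3 := by
    rw [Finset.card_insert_of_notMem, Finset.card_insert_of_notMem, Finset.card_singleton]
    · simpa using hab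
    · simp only [Finset.mem_insert, Finset.mem_singleton, not_or]
      exact ⟨ha.symm, hb.symm⟩
  have h4 := Finset.card_le_card h2
  omega

variable {n : ℕ} {F : Type*} [Field F]

theorem invol_eq_pow [Fintype F] {q : ℕ} (hF : Fintype.card F = q ^ 2) (σ : F ≃+* F) (hσ : σ ≠ 1)
    (hσ2 : σ * σ = 1) : ∀ t, σ t = t ^ q := by
  let φ : F ≃+* F :=
    { Cfsg.Agent.Lib.Helper13.frobQ hF with
      invFun := fun t => t ^ q
      left_inv := fun t => Cfsg.Agent.Lib.Helper13.pow_q_pow_q hF t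
      right_inv := fun t => Cfsg.Agent.Lib.Helper13.pow_q_pow_q hF t }
  have hφ : φ ≠ 1 := by
    intro h
    apply Cfsg.Agent.Lib.Helper13.frobQ_ne_id hF
    ext t
    exact DFunLike.congr_fun h t
  have hφ2 : φ ^ 2 = 1 := by
    ext t
    show (t ^ q) ^ q = t
    exact Cfsg.Agent.Lib.Helper13.pow_q_pow_q hF t
  have := isCyclic_ringAut (F := F)
  have hfin : Finite (F ≃+* F) := Finite.of_injective (fun e => (e : F → F)) DFunLike.coe_injective
  have e : σ = φ := cyclic_invol_unique hσ hφ (by rw [sq]; exact hσ2) hφ2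
  intro t
  rw [e]
  rfl

lemma invTGL_mul (a b : GL (Fin n) F) : invTGL (a * b) = invTGL a * invTGL b := by
  apply Units.ext
  rw [Units.val_mul, invTGL_coe, invTGL_coe, invTGL_coe, _root_.mul_inv_rev, Units.val_mul,
    Matrix.transpose_mul]

/-- `g ↦ σ(g)^{-T}`. -/
noncomputable def tauGL (σ : F ≃+* F) : GL (Fin n) F →* GL (Fin n) F where
  toFun g := mapGL σ (invTGL g)
  map_one' := by
    apply Units.ext
    rw [mapGL_coe, invTGL_coe]
    simp
  map_mul' a b := by rw [invTGL_mul, map_mul]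

lemma tauGL_apply (σ : F ≃+* F) (g : GL (Fin n) F) : tauGL σ g = mapGL σ (invTGL g) := rfl

lemma tauGL_coe (σ : F ≃+* F) (g : GL (Fin n) F) :
    (tauGL σ g).1 = ((g⁻¹ : GL (Fin n) F).1ᵀ).map σ := rfl

lemma tauGL_inv_coe (σ : F ≃+* F) (g : GL (Fin n) F) :
    ((tauGL σ g)⁻¹ : GL (Fin n) F).1 = (g.1ᵀ).map σ := by
  rw [← map_inv, tauGL_coe, inv_inv]

lemma tauGL_tauGL (σ : F ≃+* F) (hσ2 : σ * σ = 1) (g : GL (Fin n) F) : tauGL σ (tauGL σ g) = g := by
  have hinv : ∀ a, σ (σ a) = a := fun a => DFunLike.congr_fun hσ2 a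
  apply Units.ext
  rw [tauGL_coe, tauGL_inv_coe]
  ext i j
  simp [hinv]

lemma tauGL_scGL (σ : F ≃+* F) (u : Fˣ) : tauGL σ (scGL u : GL (Fin n) F) = scGL (uM σ u)⁻¹ := by
  rw [← map_inv, ← mapGL_scGL, tauGL_apply]
  congr 1
  apply Units.ext
  rw [invTGL_coe, ← map_inv, scGL_coe]
  simp [Matrix.scalar_apply]

lemma tauGL_dil (σ : F ≃+* F) (i0 : Fin n) (w : Fˣ) : tauGL σ (dil i0 w) = dil i0 (uM σ w)⁻¹ := by
  rw [← map_inv, ← mapGL_dil, tauGL_apply]
  congr 1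
  apply Units.ext
  rw [invTGL_coe, ← map_inv, dil_coe]
  simp

lemma det_tauGL (σ : F ≃+* F) (g : GL (Fin n) F) :
    Matrix.GeneralLinearGroup.det (tauGL σ g) = (uM σ (Matrix.GeneralLinearGroup.det g))⁻¹ := by
  rw [tauGL_apply, det_mapGL, ← map_inv]
  congr 1
  apply Units.ext
  show (invTGL g).1.det = _
  rw [invTGL_coe, Matrix.det_transpose, ← map_inv]
  rfl

lemma gf_mul_cG' (σ : F ≃+* F) (h : GL (Fin n) F) :
    (fA σ * gam) * cG h = cG (tauGL σ h) * (fA σ * gam) := gf_mul_cG σ h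

lemma hermForm_eq (σ : F ≃+* F) {q : ℕ} (hq : ∀ t, σ t = t ^ q) (u v : Fin n → F) :
    Cfsg.hermForm n F q u v = u ⬝ᵥ (⇑σ ∘ v) := by
  unfold Cfsg.hermForm dotProduct
  apply Finset.sum_congr rfl
  intro i _
  rw [Function.comp, hq]

lemma mem_GU_iff_matrix (σ : F ≃+* F) {q : ℕ} (hq : ∀ t, σ t = t ^ q) (g : GL (Fin n) F) :
    g ∈ Cfsg.GU n F q ↔ g.1ᵀ * g.1.map σ = 1 := by
  have key : ∀ u v : Fin n → F, Cfsg.hermForm n F q (g.1 *ᵥ u) (g.1 *ᵥ v) =
      u ⬝ᵥ ((g.1ᵀ * g.1.map σ) *ᵥ (⇑σ ∘ v)) := by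
    intro u v
    rw [hermForm_eq σ hq, comp_mulVec, ← mulVec_mulVec, dotProduct_mulVec u, vecMul_transpose]
  constructor
  · intro h
    ext i j
    have h1 : Cfsg.hermForm n F q (g.1 *ᵥ Pi.single i 1) (g.1 *ᵥ Pi.single j 1) =
        Cfsg.hermForm n F q (Pi.single i 1) (Pi.single j 1) := h _ _
    rw [key, hermForm_eq σ hq] at h1
    have h2 : (⇑σ ∘ (Pi.single j 1 : Fin n → F)) = Pi.single j 1 := by
      funext l
      by_cases hl : l = j
      · subst hl; simp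
      · simp [Pi.single_eq_of_ne hl]
    rw [h2] at h1
    simpa [Matrix.one_apply, Pi.single_apply, eq_comm] using h1
  · intro h u v
    show Cfsg.hermForm n F q (g.1 *ᵥ u) (g.1 *ᵥ v) = _
    rw [key, h, one_mulVec, hermForm_eq σ hq]

lemma mem_GU_iff_tau (σ : F ≃+* F) (hσ2 : σ * σ = 1) {q : ℕ} (hq : ∀ t, σ t = t ^ q)
    (g : GL (Fin n) F) : g ∈ Cfsg.GU n F q ↔ tauGL σ g = g := by
  rw [mem_GU_iff_matrix σ hq]
  have h1 : g.1ᵀ * g.1.map σ = ((invTGL g)⁻¹ * mapGL σ g : GL (Fin n) F).1 := by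
    rw [Units.val_mul, invTGL_inv_coe, mapGL_coe]
  rw [h1, ← Units.val_one, Units.val_inj, inv_mul_eq_one]
  constructor
  · intro h
    rw [tauGL_apply, h, ← mapGL_mul', hσ2, mapGL_one']
  · intro h
    rw [tauGL_apply] at h
    rw [← h, ← mapGL_mul', hσ2, mapGL_one', h]

/-- matrices inducing automorphisms commuting with the graph-field automorphism. -/
theorem mem_cent_gf_iff [Finite F] (hn : 1 ≤ n) (σ : F ≃+* F) (hσ : σ ≠ 1) (hσ2 : σ * σ = 1)
    (g : GL (Fin n) F) :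
    g ∈ (Subgroup.centralizer
      {(fA σ * gam : MulAut (ProjectiveSpecialLinearGroup (Fin n) F))}).comap cG ↔
      ∃ v : Fˣ, tauGL σ (scGL v * g) = scGL v * g := by
  have hord : orderOf σ = 2 := orderOf_eq_prime (by rw [sq]; exact hσ2) hσ
  rw [mem_cent_iff]
  constructor
  · intro h
    rw [gf_mul_cG', mul_left_inj] at h
    obtain ⟨u, hu⟩ := exists_scGL_of_cG_eq hn h
    have h1 : tauGL σ g = scGL (uM σ u)⁻¹ * g := by
      conv_lhs => rw [hu]
      rw [map_mul, tauGL_scGL, tauGL_tauGL σ hσ2]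
    have h2 : uM σ u = u := by
      apply scGL_injective hn
      rw [h1, ← mul_assoc, ← map_mul] at hu
      have h3 := mul_eq_right.1 hu.symm
      have h4 := scGL_injective hn (h3.trans (map_one _).symm)
      rw [mul_inv_eq_one] at h4
      rw [← h4]
    obtain ⟨w, hw⟩ := exists_nU_eq σ 2 hord (by norm_num) u h2
    simp only [nU_succ, nU_zero, map_one, mul_one] at hw
    refine ⟨w⁻¹, ?_⟩
    rw [map_mul, tauGL_scGL, h1, h2, ← mul_assoc, ← map_mul, ← hw]
    congr 2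
    rw [map_inv, inv_inv, _root_.mul_inv_rev, mul_inv_cancel_left]
  · rintro ⟨v, hv⟩
    rw [← cG_scGL_mul v g, gf_mul_cG', hv]

lemma scalars_eq_center (hn : 1 ≤ n) :
    Cfsg.Geo.scalars (Fin n) F = Subgroup.center (GL (Fin n) F) := by
  ext g
  constructor
  · rintro ⟨u, rfl⟩
    exact scGL_mem_center u
  · intro h
    obtain ⟨u, rfl⟩ := exists_scGL_of_mem_center h hn
    exact ⟨u, rfl⟩

/-- `C_{PGL_n(F)}(φγ) ≅ PGU_n`. -/
theorem cent_gf_equiv [Finite F] (hn : 1 ≤ n) (σ : F ≃+* F) (hσ : σ ≠ 1) (hσ2 : σ * σ = 1) {q : ℕ}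
    (hq : ∀ t, σ t = t ^ q) :
    Nonempty (↥((cG : GL (Fin n) F →* _).range ⊓
      Subgroup.centralizer {(fA σ * gam : MulAut (ProjectiveSpecialLinearGroup (Fin n) F))}) ≃*
      Cfsg.PGU n F q) := by
  let ψ : ↥(Cfsg.GU n F q) →* MulAut (ProjectiveSpecialLinearGroup (Fin n) F) :=
    cG.comp (Cfsg.GU n F q).subtype
  have hrange : ψ.range = (cG : GL (Fin n) F →* _).range ⊓
      Subgroup.centralizer {(fA σ * gam : MulAut (ProjectiveSpecialLinearGroup (Fin n) F))} := by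
    ext y
    constructor
    · rintro ⟨g₀, rfl⟩
      refine ⟨⟨_, rfl⟩, ?_⟩
      have : g₀.1 ∈ (Subgroup.centralizer
          {(fA σ * gam : MulAut (ProjectiveSpecialLinearGroup (Fin n) F))}).comap cG := by
        rw [mem_cent_gf_iff hn σ hσ hσ2]
        refine ⟨1, ?_⟩
        rw [map_one, one_mul]
        exact (mem_GU_iff_tau σ hσ2 hq _).1 g₀.2
      exact this
    · rintro ⟨⟨g, rfl⟩, hg⟩
      have hg' : g ∈ (Subgroup.centralizer
          {(fA σ * gam : MulAut (ProjectiveSpecialLinearGroup (Fin n) F))}).comap cG := hg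
      rw [mem_cent_gf_iff hn σ hσ hσ2] at hg'
      obtain ⟨v, hv⟩ := hg'
      exact ⟨⟨scGL v * g, (mem_GU_iff_tau σ hσ2 hq _).2 hv⟩, cG_scGL_mul v g⟩
  have hker : ψ.ker = (Cfsg.Geo.scalars (Fin n) F).subgroupOf (Cfsg.GU n F q) := by
    ext g₀
    rw [MonoidHom.mem_ker, Subgroup.mem_subgroupOf, scalars_eq_center hn, ← ker_cG hn,
      MonoidHom.mem_ker]
    rfl
  refine ⟨((MulEquiv.subgroupCongr hrange).symm.trans
    (QuotientGroup.quotientKerEquivRange ψ).symm).trans (QuotientGroup.quotientMulEquivOfEq hker)⟩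

theorem det_cent_gf [Finite F] (hn : 1 ≤ n) (σ : F ≃+* F) (hσ : σ ≠ 1) (hσ2 : σ * σ = 1) :
    ((Subgroup.centralizer
      {(fA σ * gam : MulAut (ProjectiveSpecialLinearGroup (Fin n) F))}).comap cG).map
      (Matrix.GeneralLinearGroup.det : GL (Fin n) F →* Fˣ) =
      (powMonoidHom n : Fˣ →* Fˣ).range ⊔ (nHom σ 2).ker := by
  have hker : ∀ w : Fˣ, w ∈ (nHom σ 2).ker ↔ (uM σ w)⁻¹ = w := by
    intro w
    rw [MonoidHom.mem_ker, nHom_apply]
    simp only [nU_succ, nU_zero, map_one, mul_one]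
    rw [inv_eq_iff_mul_eq_one, mul_comm]
  apply le_antisymm
  · rintro _ ⟨g, hg, rfl⟩
    obtain ⟨v, hv⟩ := (mem_cent_gf_iff hn σ hσ hσ2 g).1 hg
    have h1 : Matrix.GeneralLinearGroup.det g =
        (v⁻¹) ^ n * Matrix.GeneralLinearGroup.det (scGL v * g) := by
      rw [map_mul, det_scGL, ← mul_assoc, ← mul_pow, inv_mul_cancel, one_pow, one_mul]
    rw [h1]
    refine Subgroup.mul_mem _ (Subgroup.mem_sup_left ⟨v⁻¹, rfl⟩) (Subgroup.mem_sup_right ?_)
    rw [hker, ← det_tauGL, hv]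
  · rw [sup_le_iff]
    constructor
    · rintro _ ⟨u, rfl⟩
      refine ⟨scGL u, ?_, det_scGL u⟩
      apply (mem_cent_gf_iff hn σ hσ hσ2 _).2
      refine ⟨u⁻¹, ?_⟩
      rw [← map_mul, inv_mul_cancel, map_one, map_one]
    · intro w hw
      refine ⟨dil ⟨0, by omega⟩ w, ?_, det_dil _ w⟩
      apply (mem_cent_gf_iff hn σ hσ hσ2 _).2
      refine ⟨1, ?_⟩
      rw [map_one, one_mul, tauGL_dil, (hker w).1 hw]

theorem split_gf [Fintype F] {p f : ℕ} [hp : Fact p.Prime] (hF : Fintype.card F = p ^ f)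
    (hf : 1 ≤ f) (hn : 1 ≤ n) (σ : F ≃+* F) (hσ : σ ≠ 1) (hσ2 : σ * σ = 1) :
    Cfsg.splitClassCount (cG : GL (Fin n) F →* _).range
      (Cfsg.Inn (ProjectiveSpecialLinearGroup (Fin n) F)) (fA σ * gam) =
      Nat.gcd n (p ^ (f / 2) - 1) := by
  have hord : orderOf σ = 2 := orderOf_eq_prime (by rw [sq]; exact hσ2) hσ
  rw [inn_eq_map hn, splitClassCount_eq_index _ _ (det_surjective hn), det_cent_gf hn σ hσ hσ2,
    cyclic_index, Subgroup.index_ker, range_nHom σ 2 hord (by norm_num), card_fixU hF hf, hord]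

end Cfsg.Agent.Lib.Helper43.PA
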